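import Cfsg.Agent.H939.L16.Def
import Cfsg.Agent.H413.L16.Nel
import Cfsg.Agent.H378.TorFin
import Cfsg.Agent.S0242

/-!
# S5916 (`L₂(16)` in `E₈(2)`), END-G (helper544)

`end_g` : a proper non-zero `H`-stable subspace `A` is not stable under the eight root groups of the orbit under `w` of one of
the roots 157, 148, 128. The eight root groups commute; the diagonal subgroup `gl λ = ∏ x_{w^j r}(λ^(2^j))`, `λ^256 = λ`, is
fixed by the Frobenius map, hence in `H`, and its commutators with `y` form a subgroup of order 256 of `SL₂(16)`.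
-/

set_option autoImplicit false
set_option maxRecDepth 100000
set_option linter.unusedSectionVars false

namespace Cfsg.Agent.H544.L16

open Matrix Cfsg Cfsg.Lie Cfsg.Lie.ChevalleyDatum
open Cfsg.Agent.ChevalleyStructure Cfsg.Agent.ChevalleyStructure.CoxeterGeomTypes
open Cfsg.Agent.BpExc.FamUntw Cfsg.Agent.BpExc.FamInst
open Cfsg.Agent.BpExc.TorChev Cfsg.Agent.BpExc.TowChev
open Cfsg.Agent.H939.L64 (KK E2 LK em aK rE fr brK em_injective frE frE_apply rE_apply)
open Cfsg.Agent.H876.L64 (aK_mul aK_one aK_inv aK_inv' aK_add aK_smul aK_brK)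
open Cfsg.Agent.H413.L16
open Cfsg.Agent.H413.L64 (charKK pow_val)
open Cfsg.Agent.H939.L16
open Cfsg.Agent.H950.L16 (Sit mem_of_stab)

/-! ### coordinates -/

theorem dec (u : LK) : u = hv (fun i => u (Sum.inl i)) + ∑ s : Fin chevE8.nroots, u (Sum.inr s) • er s := by
  funext k
  rcases k with i | s
  · have h : ∀ s : Fin chevE8.nroots, er (s : ℕ) (Sum.inl i) = 0 := fun s => by
      rw [er_of s.2]
      exact Pi.single_eq_of_ne (by simp) _
    rw [Pi.add_apply, Finset.sum_apply, Finset.sum_eq_zero (fun s _ => by rw [Pi.smul_apply, h, smul_zero]), add_zero]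
    rfl
  · rw [Pi.add_apply, Finset.sum_apply, Finset.sum_eq_single s]
    · rw [Pi.smul_apply, er_inr, if_pos rfl, smul_eq_mul, mul_one]
      exact (zero_add _).symm
    · intro t _ ht
      rw [Pi.smul_apply, er_inr, if_neg (fun h => ht (Fin.ext h)), smul_zero]
    · intro h
      exact absurd (Finset.mem_univ s) h

theorem cor_six : ∀ i j : Fin 8, Columns.cor chevE8 (six i) j = if i = j then 1 else 0 := by decide +kernel

theorem hv_dec (c : Fin chevE8.rank → KK) : hv c = ∑ i : Fin chevE8.rank, c i • hr (six (i.cast rk8)) := by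
  funext k
  rcases k with j | s
  · rw [Finset.sum_apply, Finset.sum_eq_single j]
    · have h := cor_six (j.cast rk8) (j.cast rk8)
      rw [if_pos rfl] at h
      have h' : Columns.cor chevE8 (six (j.cast rk8)) (j : ℕ) = 1 := h
      show c j = c j * ((Columns.cor chevE8 (six (j.cast rk8)) (j : ℕ) : ℤ) : KK)
      rw [h', Int.cast_one, mul_one]
    · intro i _ hi
      have h := cor_six (i.cast rk8) (j.cast rk8)
      rw [if_neg (show ¬ (i.cast rk8 = j.cast rk8) from fun h => hi (Fin.ext (congrArg Fin.val h)))] at h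
      have h' : Columns.cor chevE8 (six (i.cast rk8)) (j : ℕ) = 0 := h
      show c i * ((Columns.cor chevE8 (six (i.cast rk8)) (j : ℕ) : ℤ) : KK) = 0
      rw [h', Int.cast_zero, mul_zero]
    · intro h
      exact absurd (Finset.mem_univ j) h
  · rw [Finset.sum_apply, Finset.sum_eq_zero]
    · rfl
    · intro i _
      rw [Pi.smul_apply, hr_inr, smul_zero]

theorem aK_inj {g h : ↥(chevE8.group KK)} (H : ∀ v, aK g v = aK h v) : g = h := by
  apply Subtype.ext
  apply Units.ext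
  apply Matrix.toLin'.injective
  ext1 i
  apply LinearMap.ext
  intro c
  simp only [LinearMap.comp_apply, Matrix.toLin'_apply]
  exact H (LinearMap.single KK (fun _ : chevE8.Idx => KK) i c)

/-! ### the permutation -/

theorem wi_lt {s : ℕ} (hs : s < 240) : wi s < 240 := by
  have h : ((List.range 240).all fun s => decide (wi s < 240)) = true := by decide +kernel
  exact of_decide_eq_true (List.all_eq_true.1 h s (List.mem_range.2 hs))

theorem wi_inv {s : ℕ} (hs : s < 240) : WT.idxOf (wi s) = s := by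
  have h : ((List.range 240).all fun s => decide (WT.idxOf (wi s) = s)) = true := by decide +kernel
  exact of_decide_eq_true (List.all_eq_true.1 h s (List.mem_range.2 hs))

theorem wi_neg {s : ℕ} (hs : s < 240) : wi (239 - s) = 239 - wi s := by
  have h : ((List.range 240).all fun s => decide (wi (239 - s) = 239 - wi s)) = true := by decide +kernel
  exact of_decide_eq_true (List.all_eq_true.1 h s (List.mem_range.2 hs))

theorem wi_inj {s t : ℕ} (hs : s < 240) (ht : t < 240) (h : wi s = wi t) : s = t := by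
  rw [← wi_inv hs, ← wi_inv ht, h]

/-! ### the Frobenius map -/

section Frob

variable {Fp : LK → LK} {ta : LK →ₗ[KK] LK}

theorem Fp_zero (O : Ops Fp ta) : Fp 0 = 0 := by
  have h := O.smul 0 0
  rwa [zero_smul, zero_pow (by norm_num), zero_smul] at h

theorem Fp_sum (O : Ops Fp ta) {ι : Type*} (S : Finset ι) (g : ι → LK) : Fp (∑ i ∈ S, g i) = ∑ i ∈ S, Fp (g i) := by
  let Φ : LK →+ LK := AddMonoidHom.mk' Fp O.add
  exact map_sum Φ g S

theorem Fp_hr (O : Ops Fp ta) {r : ℕ} (h : r < 240) : Fp (hr r) = hr (wi r) := by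
  rw [← br_neg h, O.br, O.er r h, O.er (239 - r) (by omega), wi_neg h, br_neg (wi_lt h)]

/-- the coordinates of the Frobenius map -/
theorem Fp_inr (O : Ops Fp ta) (u : LK) (s s' : Fin chevE8.nroots) (h : (s' : ℕ) = wi s) :
    Fp u (Sum.inr s') = u (Sum.inr s) ^ 2 := by
  conv_lhs => rw [dec u, O.add, hv_dec, Fp_sum O, Fp_sum O]
  rw [Pi.add_apply, Finset.sum_apply, Finset.sum_apply, Finset.sum_eq_zero, zero_add, Finset.sum_eq_single s]
  · rw [O.smul, O.er s (lt_of_lt_of_eq s.2 nr), Pi.smul_apply, er_inr, if_pos h.symm, smul_eq_mul, mul_one]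
  · intro t _ ht
    rw [O.smul, O.er t (lt_of_lt_of_eq t.2 nr), Pi.smul_apply, er_inr, if_neg, smul_zero]
    intro h1
    apply ht
    apply Fin.ext
    exact wi_inj (lt_of_lt_of_eq t.2 nr) (lt_of_lt_of_eq s.2 nr) (h1.trans h)
  · intro h
    exact absurd (Finset.mem_univ s) h
  · intro i _
    rw [O.smul, Fp_hr O (six_lt _), Pi.smul_apply, hr_inr, smul_zero]

/-- the Frobenius map on the root elements -/
theorem Fp_xr (O : Ops Fp ta) {r : ℕ} (h : r < 240) (c : KK) (u : LK) :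
    Fp (aK (xr r c) u) = aK (xr (wi r) (c ^ 2)) (Fp u) := by
  rw [aK_xr h, aK_xr (wi_lt h), O.add, O.add, O.smul, O.smul, O.br, O.er r h,
    Fp_inr O u ⟨239 - r, by rw [nr]; omega⟩ ⟨239 - wi r, by rw [nr]; omega⟩ (wi_neg h).symm, mul_pow]

end Frob

/-! ### the commuting root groups -/

/-- the values of `r + s` -/
def tgs (r : ℕ) : List ℕ := (row r).map fun e => (e.2.getD 0 (240, 0)).1

theorem tg_mem (r s : ℕ) : tg r s = 240 ∨ tg r s ∈ tgs r := by
  unfold tg
  cases h : (row r).find? fun e => e.1 == s with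
  | none => exact Or.inl rfl
  | some e =>
    right
    exact List.mem_map.2 ⟨e, List.mem_of_find?_eq_some h, rfl⟩

theorem br_coord {r s : ℕ} (hr : r < 240) (hs : s < 240) (hn : s ≠ 239 - r)
    (h : ∀ x ∈ tgs s, x ≠ 239 - r) (u : LK) :
    brK (er s) u (Sum.inr ⟨239 - r, by rw [nr]; omega⟩) = 0 := by
  have h1 : ∀ v, brK (er s) v = brM (er s) v := fun _ => rfl
  rw [h1, dec u, map_add, map_sum, Pi.add_apply, Finset.sum_apply, ← h1, br_er_hv _ hs, Pi.smul_apply, er_inr,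
    if_neg hn, smul_zero, zero_add]
  apply Finset.sum_eq_zero
  intro q _
  have hq : (q : ℕ) < 240 := lt_of_lt_of_eq q.2 nr
  rw [map_smul, Pi.smul_apply, ← h1]
  by_cases hq2 : (q : ℕ) = 239 - s
  · rw [hq2, br_neg hs, hr_inr, smul_zero]
  · rw [br_rr hs hq hq2, er_inr, if_neg, smul_zero]
    intro h3
    have h3' : tg s q = 239 - r := h3
    rcases tg_mem s q with h2 | h2
    · omega
    · exact h _ h2 h3'

theorem comm_xr {r s : ℕ} (hr : r < 240) (hs : s < 240) (hn : s ≠ 239 - r) (h0 : tg r s = 240)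
    (h1 : ∀ x ∈ tgs s, x ≠ 239 - r) (h2 : ∀ x ∈ tgs r, x ≠ 239 - s) (a b : KK) : Commute (xr r a) (xr s b) := by
  have hn' : r ≠ 239 - s := by omega
  have e0 : brK (er r) (er s) = 0 := by rw [br_rr hr hs hn, h0, er_ge le_rfl]
  have e0' : brK (er s) (er r) = 0 := by rw [br_comm, e0]
  have hz : brK (0 : LK) = fun _ => 0 := by
    funext v
    have : brK (0 : LK) v = brM 0 v := rfl
    rw [this, map_zero]
    rfl
  have key : ∀ u, brK (er r) (brK (er s) u) = brK (er s) (brK (er r) u) := fun u => by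
    rw [jac, e0, hz, zero_add]
  have hM : ∀ t v w, brK (er t) (v + w) = brK (er t) v + brK (er t) w := fun t v w => map_add (brM (er t)) v w
  have hS : ∀ t (c : KK) v, brK (er t) (c • v) = c • brK (er t) v := fun t c v => map_smul (brM (er t)) c v
  apply aK_inj
  intro u
  rw [aK_mul, aK_mul, aK_xr hs b u, aK_xr hr a u, aK_xr hr, aK_xr hs]
  simp only [Pi.add_apply, Pi.smul_apply, br_coord hr hs hn h1, br_coord hs hr hn' h2, er_inr, hM, hS, e0, e0', key]
  rw [if_neg hn, if_neg hn']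
  simp only [smul_zero, add_zero, smul_add, smul_smul, smul_eq_mul, mul_zero]
  rw [mul_comm b a]
  abel

/-! ### the check of an orbit -/

/-- the check for the orbit of `r`, `s` a test vector -/
def okO (r s : ℕ) : Bool :=
  ((List.range 8).all fun j => decide (wt16 (239 - wi^[j] r) + wt16 (wi^[j] r) = 0) &&
    (decide (j = 7) || decide (wt16 (wi^[j + 1] r) = 2 * wt16 (wi^[j] r))) &&
    (decide (j = 0) || (decide (tg (wi^[j] r) s = 240) && decide (s ≠ 239 - wi^[j] r))) &&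
    (List.range 8).all fun k => decide (wi^[k] r ≠ 239 - wi^[j] r) && decide (tg (wi^[j] r) (wi^[k] r) = 240) &&
      (tgs (wi^[j] r)).all fun x => decide (x ≠ 239 - wi^[k] r)) &&
  decide (r < 240) && decide (wi^[8] r = r) && decide (s < 240) && decide (tg r s < 240) && decide (s ≠ 239 - r) &&
  decide (wt16 r ≠ 0)

/-- the properties of an orbit -/
structure Orb (r s : ℕ) : Prop where
  lt : ∀ j, wi^[j] r < 240
  per : wi^[8] r = r
  com : ∀ j < 8, ∀ k < 8, ∀ a b : KK, Commute (xr (wi^[j] r) a) (xr (wi^[k] r) b)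
  neg : ∀ j < 8, wt16 (239 - wi^[j] r) + wt16 (wi^[j] r) = 0
  dbl : ∀ j, j + 1 < 8 → wt16 (wi^[j + 1] r) = 2 * wt16 (wi^[j] r)
  slt : s < 240
  tlt : tg r s < 240
  sn : s ≠ 239 - r
  fix : ∀ j, j + 1 < 8 → tg (wi^[j + 1] r) s = 240 ∧ s ≠ 239 - wi^[j + 1] r
  ne : wt16 r ≠ 0

theorem it_lt {r : ℕ} (h : r < 240) (j : ℕ) : wi^[j] r < 240 := by
  induction j with
  | zero => exact h
  | succ j ih =>
    rw [Function.iterate_succ_apply']
    exact wi_lt ih

theorem orb_of {r s : ℕ} (h : okO r s = true) : Orb r s := by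
  unfold okO at h
  simp only [Bool.and_eq_true, decide_eq_true_eq] at h
  obtain ⟨⟨⟨⟨⟨⟨h1, h2⟩, h3⟩, h4⟩, h5⟩, h6⟩, h7⟩ := h
  have key := fun j (hj : j < 8) => List.all_eq_true.1 h1 j (List.mem_range.2 hj)
  simp only [Bool.and_eq_true, decide_eq_true_eq, Bool.or_eq_true, List.all_eq_true, List.mem_range] at key
  refine ⟨it_lt h2, h3, ?_, fun j hj => (key j hj).1.1.1, fun j hj => ?_, h4, h5, h6, fun j hj => ?_, h7⟩
  · intro j hj k hk a b
    have k1 := (key j hj).2 k hk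
    have k2 := (key k hk).2 j hj
    exact comm_xr (it_lt h2 j) (it_lt h2 k) k1.1.1 k1.1.2 k2.2 k1.2 a b
  · exact (key j (by omega)).1.1.2.resolve_left (by omega)
  · exact (key (j + 1) hj).1.2.resolve_left (by omega)

theorem orb157 : Orb 157 15 := orb_of (by decide +kernel)
theorem orb148 : Orb 148 19 := orb_of (by decide +kernel)
theorem orb128 : Orb 128 36 := orb_of (by decide +kernel)

/-! ### the diagonal subgroup -/

/-- `x_r(c) x_{w r}(c²) x_{w² r}(c⁴) ⋯` (`n` factors) -/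
noncomputable def gp : ℕ → ℕ → KK → ↥(chevE8.group KK)
  | 0, _, _ => 1
  | n + 1, r, c => xr r c * gp n (wi r) (c ^ 2)

theorem gp_succ (n r : ℕ) (c : KK) : gp (n + 1) r c = xr r c * gp n (wi r) (c ^ 2) := rfl

theorem gp_succ' (n r : ℕ) (c : KK) : gp (n + 1) r c = gp n r c * xr (wi^[n] r) (c ^ 2 ^ n) := by
  induction n generalizing r c with
  | zero =>
    show xr r c * 1 = 1 * xr r (c ^ 2 ^ 0)
    rw [mul_one, one_mul, pow_zero, pow_one]
  | succ n ih => rw [gp_succ, ih, gp_succ, mul_assoc, Function.iterate_succ_apply, ← pow_mul, ← pow_succ']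

theorem com_gp {n r : ℕ} {c : KK} {x : ↥(chevE8.group KK)} (h : ∀ j < n, ∀ b, Commute x (xr (wi^[j] r) b)) :
    Commute x (gp n r c) := by
  induction n generalizing r c with
  | zero => exact Commute.one_right x
  | succ n ih =>
    rw [gp_succ]
    exact (h 0 (Nat.succ_pos n) c).mul_right (ih fun j hj b => h (j + 1) (by omega) b)

theorem sq_add (a b : KK) : (a + b) ^ 2 = a ^ 2 + b ^ 2 := by
  have := charKK
  exact add_pow_char a b 2

theorem gp_add {n r : ℕ} (h : ∀ j < n, ∀ k < n, ∀ a b, Commute (xr (wi^[j] r) a) (xr (wi^[k] r) b))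
    (hr : r < 240) (a b : KK) : gp n r a * gp n r b = gp n r (a + b) := by
  induction n generalizing r a b with
  | zero => exact mul_one 1
  | succ n ih =>
    have h1 : Commute (xr r b) (gp n (wi r) (a ^ 2)) := com_gp fun j hj x => h 0 (by omega) (j + 1) (by omega) b x
    have h2 := ih (r := wi r) (fun j hj k hk => h (j + 1) (by omega) (k + 1) (by omega)) (wi_lt hr) (a ^ 2) (b ^ 2)
    rw [gp_succ, gp_succ, gp_succ, sq_add, ← h2, ← xr_add hr]
    calc xr r a * gp n (wi r) (a ^ 2) * (xr r b * gp n (wi r) (b ^ 2)) =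
        xr r a * (gp n (wi r) (a ^ 2) * xr r b) * gp n (wi r) (b ^ 2) := by group
      _ = xr r a * (xr r b * gp n (wi r) (a ^ 2)) * gp n (wi r) (b ^ 2) := by rw [h1.eq]
      _ = _ := by group

theorem gp_zero {n r : ℕ} (hr : r < 240) : gp n r 0 = 1 := by
  induction n generalizing r with
  | zero => rfl
  | succ n ih => rw [gp_succ, xr_zero hr, one_mul, zero_pow (by norm_num), ih (wi_lt hr)]

theorem gp_er {n r s : ℕ} (hr : r < 240) (hs : s < 240) (h : ∀ j < n, tg (wi^[j] r) s = 240 ∧ s ≠ 239 - wi^[j] r)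
    (c : KK) : aK (gp n r c) (er s) = er s := by
  induction n generalizing r c with
  | zero => exact aK_one _
  | succ n ih =>
    have h0 := h 0 (by omega)
    have h1 : tg r s = 240 := h0.1
    rw [gp_succ, aK_mul, ih (wi_lt hr) (fun j hj => h (j + 1) (by omega)), aK_xr_er hr hs h0.2, h1, er_ge le_rfl,
      smul_zero, add_zero]

theorem gp_mem {A : Submodule KK LK} {z : ↥(chevE8.group KK)} {n r : ℕ}
    (h : ∀ j < n, ∀ lam : KK, ∀ v ∈ A, aK (z * xr (wi^[j] r) lam * z⁻¹) v ∈ A) (c : KK) :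
    ∀ v ∈ A, aK (z * gp n r c * z⁻¹) v ∈ A := by
  induction n generalizing r c with
  | zero =>
    intro v hv
    have e : z * gp 0 r c * z⁻¹ = 1 := by
      show z * 1 * z⁻¹ = 1
      group
    rw [e, aK_one]
    exact hv
  | succ n ih =>
    intro v hv
    have e : z * gp (n + 1) r c * z⁻¹ = (z * xr r c * z⁻¹) * (z * gp n (wi r) (c ^ 2) * z⁻¹) := by
      rw [gp_succ]; group
    rw [e, aK_mul]
    exact h 0 (by omega) c _ (ih (fun j hj => h (j + 1) (by omega)) _ v hv)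

theorem Fp_gp {Fp : LK → LK} {ta : LK →ₗ[KK] LK} (O : Ops Fp ta) {n r : ℕ} (hr : r < 240) (c : KK) (u : LK) :
    Fp (aK (gp n r c) u) = aK (gp n (wi r) (c ^ 2)) (Fp u) := by
  induction n generalizing r c u with
  | zero =>
    show Fp (aK 1 u) = aK 1 (Fp u)
    rw [aK_one, aK_one]
  | succ n ih => rw [gp_succ, gp_succ, aK_mul, aK_mul, Fp_xr O hr, ih (wi_lt hr)]

theorem Orb.lt0 {r s : ℕ} (P : Orb r s) : r < 240 := P.lt 0

theorem gp_rot {r s : ℕ} (P : Orb r s) {c : KK} (hc : c ^ 256 = c) : gp 8 (wi r) (c ^ 2) = gp 8 r c := by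
  have e : wi^[7] (wi r) = r := P.per
  have e2 : (c ^ 2) ^ 2 ^ 7 = c := by
    rw [← pow_mul]
    exact hc
  have h : Commute (xr r c) (gp 7 (wi r) (c ^ 2)) :=
    com_gp fun j hj b => P.com 0 (by omega) (j + 1) (by omega) c b
  rw [gp_succ' 7, e, e2, gp_succ 7 r c, h.eq]

theorem Fp_gl {Fp : LK → LK} {ta : LK →ₗ[KK] LK} (O : Ops Fp ta) {r s : ℕ} (P : Orb r s) {c : KK} (hc : c ^ 256 = c)
    (u : LK) : Fp (aK (gp 8 r c) u) = aK (gp 8 r c) (Fp u) := by
  rw [Fp_gp O P.lt0, gp_rot P hc]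

theorem gl_inj {r s : ℕ} (P : Orb r s) {c : KK} (h : gp 8 r c = 1) : c = 0 := by
  have h1 : aK (gp 8 r c) (er s) = er s + c • er (tg r s) := by
    rw [gp_succ, aK_mul, gp_er (wi_lt P.lt0) P.slt fun j hj => P.fix j (by omega), aK_xr_er P.lt0 P.slt P.sn]
  rw [h, aK_one] at h1
  have h2 : c • er (tg r s) = 0 := left_eq_add.1 h1
  have hs : tg r s < chevE8.nroots := by rw [nr]; exact P.tlt
  have h3 := congrFun h2 (Sum.inr ⟨tg r s, hs⟩)
  rw [Pi.smul_apply, er_inr, if_pos rfl, smul_eq_mul, mul_one] at h3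
  exact h3

/-- the additive homomorphism -/
theorem gl_add {r s : ℕ} (P : Orb r s) (a b : KK) : gp 8 r a * gp 8 r b = gp 8 r (a + b) := gp_add P.com P.lt0 a b

theorem gl_inv {r s : ℕ} (P : Orb r s) (a : KK) : (gp 8 r a)⁻¹ = gp 8 r a := by
  apply inv_eq_of_mul_eq_one_left
  have h : a + a = 0 := by
    have := charKK
    exact CharTwo.add_self_eq_zero a
  rw [gl_add P, h, gp_zero P.lt0]

/-! ### the torus element -/

section Tor

variable {F : Type} [Field F] [Fintype F] {H : Subgroup E2} {f : SpecialLinearGroup (Fin 2) F →* E2}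
  {y t0 : SpecialLinearGroup (Fin 2) F} {z : ↥(chevE8.group KK)} {ζ' : KK} {Fp : LK → LK} {ta : LK →ₗ[KK] LK}

theorem zp_add (h : IsPrimitiveRoot ζ' 17) (a b : ZMod 17) : ζ' ^ a.val * ζ' ^ b.val = ζ' ^ (a + b).val := by
  rw [← pow_add, pow_val h, Nat.cast_add, ZMod.natCast_zmod_val, ZMod.natCast_zmod_val]

theorem t_inr (L : Lsit H f y t0 z ζ' Fp ta) (u : LK) (s : Fin chevE8.nroots) :
    rz z f y u (Sum.inr s) = ζ' ^ (wt16 s).val * u (Sum.inr s) := by
  conv_lhs => rw [dec u, map_add, map_sum, L.yhv]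
  rw [Pi.add_apply, Finset.sum_apply, Finset.sum_eq_single s]
  · rw [map_smul, L.yer s (lt_of_lt_of_eq s.2 nr), Pi.smul_apply, Pi.smul_apply, er_inr, if_pos rfl, smul_eq_mul,
      smul_eq_mul, mul_one]
    show 0 + _ = _
    rw [zero_add, mul_comm]
  · intro t _ ht
    rw [map_smul, L.yer t (lt_of_lt_of_eq t.2 nr), Pi.smul_apply, Pi.smul_apply, er_inr,
      if_neg (fun h => ht (Fin.ext h)), smul_zero, smul_zero]
  · intro h
    exact absurd (Finset.mem_univ s) h

/-- the torus element on the root elements -/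
theorem t_xr (L : Lsit H f y t0 z ζ' Fp ta) {r : ℕ} (hr : r < 240) (hn : wt16 (239 - r) + wt16 r = 0) (c : KK) :
    (z⁻¹ * em (f y) * z) * xr r c = xr r (ζ' ^ (wt16 r).val * c) * (z⁻¹ * em (f y) * z) := by
  apply aK_inj
  intro u
  have h1 : aK (z⁻¹ * em (f y) * z) (er r) = ζ' ^ (wt16 r).val • er r := L.yer r hr
  have h2 : aK (z⁻¹ * em (f y) * z) u (Sum.inr ⟨239 - r, by rw [nr]; omega⟩) = ζ' ^ (wt16 (239 - r)).val *
      u (Sum.inr ⟨239 - r, by rw [nr]; omega⟩) := t_inr L u _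
  have h3 : ζ' ^ (wt16 (239 - r)).val * ζ' ^ (wt16 r).val = 1 := by
    rw [zp_add L.prim, hn, ZMod.val_zero, pow_zero]
  generalize z⁻¹ * em (f y) * z = T at h1 h2 ⊢
  rw [aK_mul, aK_mul, aK_xr hr, aK_xr hr, aK_add, aK_add, aK_smul, aK_smul, aK_brK]
  rw [h1, h2, show brK (ζ' ^ (wt16 r).val • er r) (aK T u) =
    ζ' ^ (wt16 r).val • brK (er r) (aK T u) from Cfsg.Agent.H971.RV.br_smul_left _ _ _,
    smul_smul, smul_smul]
  congr 2
  · rw [mul_comm c]
  · linear_combination (-(ζ' ^ (wt16 r).val * c ^ 2 * u (Sum.inr ⟨239 - r, by rw [nr]; omega⟩))) * h3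

theorem t_gp (L : Lsit H f y t0 z ζ' Fp ta) {n r : ℕ} (hr : r < 240)
    (hn : ∀ j < n, wt16 (239 - wi^[j] r) + wt16 (wi^[j] r) = 0)
    (hd : ∀ j, j + 1 < n → wt16 (wi^[j + 1] r) = 2 * wt16 (wi^[j] r)) (c : KK) :
    (z⁻¹ * em (f y) * z) * gp n r c = gp n r (ζ' ^ (wt16 r).val * c) * (z⁻¹ * em (f y) * z) := by
  induction n generalizing r c with
  | zero =>
    show _ * 1 = 1 * _
    rw [mul_one, one_mul]
  | succ n ih =>
    have h1 := ih (r := wi r) (wi_lt hr) (fun j hj => hn (j + 1) (by omega)) (fun j hj => hd (j + 1) (by omega)) (c ^ 2)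
    have h2 : gp n (wi r) (ζ' ^ (wt16 (wi r)).val * c ^ 2) = gp n (wi r) ((ζ' ^ (wt16 r).val * c) ^ 2) := by
      rcases n with _ | n
      · rfl
      · have h3 : wt16 (wi r) = 2 * wt16 r := hd 0 (by omega)
        rw [h3, two_mul, ← zp_add L.prim]
        congr 1
        ring
    rw [gp_succ, gp_succ, ← mul_assoc, t_xr L hr (hn 0 (by omega)), mul_assoc, h1, h2]
    group

end Tor

/-! ### the Frobenius map on the group -/

attribute [local instance] Cfsg.Agent.H413.L64.charKK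

theorem fr_aK (g : ↥(chevE8.group KK)) (v : LK) : fr (aK g v) = aK (phi chevE8 KK 2 1 g) (fr v) := by
  funext i
  have h := Cfsg.Agent.BpExc.FamUntw.phi_coe (D := chevE8) (k := KK) (r := 2) 1 g
  unfold aK
  rw [h]
  show ((((g : GL chevE8.Idx KK) : Matrix chevE8.Idx chevE8.Idx KK)).mulVec v i) ^ 2 = _
  rw [Matrix.mulVec, Matrix.mulVec, dotProduct, dotProduct, ← frobenius_def, map_sum]
  refine Finset.sum_congr rfl fun j _ => ?_
  rw [map_mul, frobenius_def, frobenius_def, Matrix.map_apply, pow_one]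
  rfl

section Fin

variable {F : Type} [Field F] [Fintype F] {H : Subgroup E2} {f : SpecialLinearGroup (Fin 2) F →* E2}
  {y t0 : SpecialLinearGroup (Fin 2) F} {z : ↥(chevE8.group KK)} {ζ' : KK} {Fp : LK → LK} {ta : LK →ₗ[KK] LK}

/-- the elements of the diagonal subgroup are in `E₈(2)` -/
theorem exists_em (L : Lsit H f y t0 z ζ' Fp ta) {r s : ℕ} (P : Orb r s) {c : KK} (hc : c ^ 256 = c) :
    ∃ g : E2, em g = z * gp 8 r c * z⁻¹ := by
  have hcard : Nat.card (ZMod 2) = 2 ^ 1 := by simp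
  have h1 : ∀ v, fr (aK (z * gp 8 r c * z⁻¹) v) = aK (z * gp 8 r c * z⁻¹) (fr v) := by
    intro v
    have e1 : aK z⁻¹ (fr (aK (z * gp 8 r c * z⁻¹) v)) = aK z⁻¹ (aK (z * gp 8 r c * z⁻¹) (fr v)) := by
      rw [L.frob, ← aK_mul z⁻¹, ← aK_mul z⁻¹]
      have e2 : z⁻¹ * (z * gp 8 r c * z⁻¹) = gp 8 r c * z⁻¹ := by group
      rw [e2, aK_mul (gp 8 r c), aK_mul (gp 8 r c), Fp_gl L.ops P hc, L.frob]
    rw [← aK_inv z (fr (aK (z * gp 8 r c * z⁻¹) v)), e1, aK_inv]
  have h2 : phi chevE8 KK 2 1 (z * gp 8 r c * z⁻¹) = z * gp 8 r c * z⁻¹ := by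
    apply aK_inj
    intro v
    obtain ⟨w, hw⟩ := frE.surjective v
    have hw' : fr w = v := hw
    rw [← hw', ← fr_aK, h1]
  exact Cfsg.Agent.H378.TorFin.fix_mem Cfsg.Agent.BpExc.RowsUntw.e8T (algebraMap (ZMod 2) KK) 2 hcard
    Cfsg.Agent.BpExc.FamInst.inv_E8 h2

theorem card_sl (hF : Fintype.card F = 16) : Nat.card (SpecialLinearGroup (Fin 2) F) = 4080 := by
  have h1 := Cfsg.Agent.S0242.result (F := F) hF 2 (by norm_num)
  rw [Fin.prod_univ_two] at h1
  simp only [Fin.val_zero, Fin.val_one] at h1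
  omega

/-- **END-G** -/
theorem end_g (hF : Fintype.card F = 16) (S : Sit H f y) (L : Lsit H f y t0 z ζ' Fp ta) {A : Submodule KK LK}
    (h0 : A ≠ ⊥) (h1 : A ≠ ⊤) (hH : ∀ h ∈ H, ∀ v ∈ A, rE h v ∈ A) {r : ℕ} (hr : r = 157 ∨ r = 148 ∨ r = 128)
    (hA : ∀ j < 8, ∀ lam : KK, ∀ v ∈ A, aK (z * xr (wi^[j] r) lam * z⁻¹) v ∈ A) : False := by
  obtain ⟨s, P⟩ : ∃ s, Orb r s := by
    rcases hr with rfl | rfl | rfl
    exacts [⟨_, orb157⟩, ⟨_, orb148⟩, ⟨_, orb128⟩]
  have hp17 : ζ' ^ 17 = 1 := L.prim.pow_eq_one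
  have hζ256 : ∀ i : ℕ, (ζ' ^ i) ^ 256 = ζ' ^ i := fun i => by
    rw [← pow_mul, show i * 256 = 17 * (15 * i) + i by ring, pow_add, pow_mul, hp17, one_pow, one_mul]
  obtain ⟨ω, hω⟩ : ∃ ω, ω = ζ' ^ (wt16 r).val := ⟨_, rfl⟩
  have hω256 : (1 + ω) ^ 256 = 1 + ω := by
    have h : (1 + ω) ^ 2 ^ 8 = 1 ^ 2 ^ 8 + ω ^ 2 ^ 8 := add_pow_char_pow 1 ω 2 8
    rw [one_pow] at h
    have h' : ω ^ 2 ^ 8 = ω := by rw [hω]; exact hζ256 _
    rw [h'] at h
    exact h
  have hω0 : 1 + ω ≠ 0 := by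
    intro h
    have h2 : ω = 1 := by
      have h3 : ω = -1 := (neg_eq_of_add_eq_zero_right h).symm
      rw [h3]
      exact CharTwo.neg_eq 1
    rw [hω] at h2
    have h3 : (wt16 r).val ≠ 0 := fun h4 => P.ne ((ZMod.val_eq_zero _).1 h4)
    exact L.prim.pow_ne_one_of_pos_of_lt h3 (ZMod.val_lt _) h2
  have key : ∀ μ : KK, μ ^ 256 = μ → ∃ b : SpecialLinearGroup (Fin 2) F, em (f b) = z * gp 8 r μ * z⁻¹ := by
    intro μ hμ
    obtain ⟨l, hl⟩ : ∃ l, l = μ / (1 + ω) := ⟨_, rfl⟩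
    have hl256 : l ^ 256 = l := by rw [hl, div_pow, hμ, hω256]
    have hlμ : l + ω * l = μ := by
      rw [hl]
      field_simp
    obtain ⟨g, hg⟩ := exists_em L P hl256
    have hgH : g ∈ H := by
      apply mem_of_stab S h0 h1 hH
      intro v hv
      rw [rE_apply, hg]
      exact gp_mem hA l v hv
    obtain ⟨τ, hτ⟩ := S.nor g hgH
    refine ⟨τ y * y⁻¹, ?_⟩
    have e1 := t_gp L P.lt0 (n := 8) P.neg P.dbl l
    rw [← hω] at e1
    have e2 : gp 8 r (ω * l) = (z⁻¹ * em (f y) * z) * gp 8 r l * (z⁻¹ * em (f y) * z)⁻¹ := by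
      rw [e1, mul_inv_cancel_right]
    rw [map_mul, hτ, map_inv, map_mul, map_mul, map_mul, map_inv, map_inv, hg, ← hlμ, ← gl_add P, e2]
    have e3 : (z * gp 8 r l * z⁻¹)⁻¹ = z * gp 8 r l * z⁻¹ := by
      rw [_root_.mul_inv_rev, _root_.mul_inv_rev, inv_inv, gl_inv P, mul_assoc]
    rw [e3]
    group
  let B : Subgroup (SpecialLinearGroup (Fin 2) F) :=
    { carrier := {b | ∃ μ : KK, μ ^ 256 = μ ∧ em (f b) = z * gp 8 r μ * z⁻¹}
      mul_mem' := by
        rintro a b ⟨μ, hμ, ha⟩ ⟨ν, hν, hb⟩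
        refine ⟨μ + ν, ?_, ?_⟩
        · have h : (μ + ν) ^ 2 ^ 8 = μ ^ 2 ^ 8 + ν ^ 2 ^ 8 := add_pow_char_pow μ ν 2 8
          exact h.trans (congrArg₂ (· + ·) hμ hν)
        · rw [map_mul, map_mul, ha, hb, ← gl_add P]
          group
      one_mem' := by
        refine ⟨0, zero_pow (by norm_num), ?_⟩
        rw [map_one, map_one, gp_zero P.lt0]
        group
      inv_mem' := by
        rintro a ⟨μ, hμ, ha⟩
        refine ⟨μ, hμ, ?_⟩
        rw [map_inv, map_inv, ha, _root_.mul_inv_rev, _root_.mul_inv_rev, inv_inv, gl_inv P, mul_assoc] }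
  have hB : IsPGroup 2 ↥B := by
    rintro ⟨b, μ, hμ, hb⟩
    refine ⟨1, Subtype.ext ?_⟩
    show b ^ 2 ^ 1 = 1
    apply S.inj
    apply em_injective
    have hμ2 : μ + μ = 0 := CharTwo.add_self_eq_zero μ
    rw [pow_one, pow_two, map_mul, map_mul, hb, map_one, map_one]
    calc z * gp 8 r μ * z⁻¹ * (z * gp 8 r μ * z⁻¹) = z * (gp 8 r μ * gp 8 r μ) * z⁻¹ := by group
      _ = z * 1 * z⁻¹ := by rw [gl_add P, hμ2, gp_zero P.lt0]
      _ = 1 := by group
  have : Finite (SpecialLinearGroup (Fin 2) F) := inferInstance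
  obtain ⟨k, hk⟩ := IsPGroup.iff_card.1 hB
  have hdvd := B.card_subgroup_dvd_card
  rw [hk, card_sl hF] at hdvd
  have hk4 : k ≤ 4 := by
    by_contra h
    have h5 : 2 ^ 5 ∣ 4080 := (pow_dvd_pow 2 (by omega : 5 ≤ k)).trans hdvd
    norm_num at h5
  choose ψ hψ using fun i : Fin 17 => key (ζ' ^ (i : ℕ)) (hζ256 i)
  have hinj : Function.Injective (fun i : Fin 17 => (⟨ψ i, ζ' ^ (i : ℕ), hζ256 i, hψ i⟩ : ↥B)) := by
    intro i j hij
    have h2 : ψ i = ψ j := congrArg Subtype.val hij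
    have h3 := hψ i
    rw [h2, hψ j] at h3
    have h4 : gp 8 r (ζ' ^ (j : ℕ)) = gp 8 r (ζ' ^ (i : ℕ)) := mul_left_cancel (mul_right_cancel h3)
    have h5 : gp 8 r (ζ' ^ (i : ℕ) + ζ' ^ (j : ℕ)) = 1 := by
      rw [← gl_add P, h4, gl_add P, CharTwo.add_self_eq_zero, gp_zero P.lt0]
    have h6 := gl_inj P h5
    have h7 : ζ' ^ (i : ℕ) = ζ' ^ (j : ℕ) := by
      rw [← CharTwo.add_eq_zero]
      exact h6
    exact Fin.ext (L.prim.pow_inj i.2 j.2 h7)
  have hcard : 17 ≤ Nat.card ↥B := by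
    have := Nat.card_le_card_of_injective _ hinj
    rwa [Nat.card_eq_fintype_card (α := Fin 17), Fintype.card_fin] at this
  rw [hk] at hcard
  have h16 : 2 ^ k ≤ 2 ^ 4 := Nat.pow_le_pow_right (by norm_num) hk4
  omega

end Fin

end Cfsg.Agent.H544.L16
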